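import Mathlib

/-!
Marggraf's theorem: a primitive group with a Jordan set of at most half the points is triply transitive.
-/

set_option autoImplicit false

namespace CfsgLib.Marggraf

open MulAction Pointwise

variable {G Ω : Type*} [Group G] [MulAction G Ω]

/-- No translate of `Γ` contains exactly one of `x`, `y` while avoiding `a`. -/
def Coupled (G : Type*) {Ω : Type*} [Group G] [MulAction G Ω] (Γ : Set Ω) (a x y : Ω) : Prop :=
  ∀ g : G, g⁻¹ • a ∉ Γ → (g⁻¹ • x ∈ Γ ↔ g⁻¹ • y ∈ Γ)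

/-- Counts of translates are invariant under moving the points. -/
theorem card_filter_smul [Finite G] (P : Ω → Ω → Prop) {a b a' b' : Ω}
    (h : ∃ h : G, h • a = a' ∧ h • b = b') :
    Nat.card {g : G // P (g⁻¹ • a) (g⁻¹ • b)} = Nat.card {g : G // P (g⁻¹ • a') (g⁻¹ • b')} := by
  obtain ⟨h, rfl, rfl⟩ := h
  exact Nat.card_congr (Equiv.subtypeEquiv (Equiv.mulLeft h) fun g => by simp [mul_smul])

theorem imp_of_imp [Finite G] (P : Ω → Ω → Prop) {a b a' b' : Ω}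
    (h : ∃ h : G, h • a = a' ∧ h • b = b') (himp : ∀ g : G, P (g⁻¹ • a) (g⁻¹ • b) → P (g⁻¹ • a') (g⁻¹ • b')) :
    ∀ g : G, P (g⁻¹ • a') (g⁻¹ • b') → P (g⁻¹ • a) (g⁻¹ • b) := by
  intro g hg
  let ι : {g : G // P (g⁻¹ • a) (g⁻¹ • b)} → {g : G // P (g⁻¹ • a') (g⁻¹ • b')} :=
    fun g => ⟨g.1, himp g.1 g.2⟩
  have hι : Function.Injective ι := fun u v e => Subtype.ext (congrArg Subtype.val e :)
  obtain ⟨u, hu⟩ := (hι.bijective_of_nat_card_le (card_filter_smul P h).ge).2 ⟨g, hg⟩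
  have e : u.1 = g := congrArg Subtype.val hu
  exact e ▸ u.2

theorem Coupled.swap [Finite G] (h2 : IsMultiplyPretransitive G Ω 2) {Γ : Set Ω} {a x y : Ω}
    (hax : a ≠ x) (hxy : x ≠ y) (h : Coupled G Γ a x y) : Coupled G Γ x a y := by
  have h2' : ∀ {a b c d : Ω}, a ≠ b → c ≠ d → ∃ g : G, g • a = c ∧ g • b = d :=
    fun hab hcd => is_two_pretransitive_iff.1 h2 hab hcd
  -- translates containing `y` but not `x` contain `a`, and there are as many as containing `a` not `x`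
  have key : ∀ g : G, (g⁻¹ • a ∈ Γ ∧ g⁻¹ • x ∉ Γ) → (g⁻¹ • y ∈ Γ ∧ g⁻¹ • x ∉ Γ) :=
    imp_of_imp (fun u v => u ∈ Γ ∧ v ∉ Γ) (h2' hxy.symm hax) fun g ⟨hy, hx⟩ =>
      ⟨by_contra fun ha => hx ((h g ha).2 hy), hx⟩
  intro g hx
  refine ⟨fun ha => (key g ⟨ha, hx⟩).1, fun hy => by_contra fun ha => hx ((h g ha).2 hy)⟩

theorem Coupled.symm' {Γ : Set Ω} {a x y : Ω} (h : Coupled G Γ a x y) : Coupled G Γ a y x :=
  fun g ha => (h g ha).symm

/-- In the situation of Marggraf's theorem there are no coupled triples. -/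
theorem not_coupled [Finite G] [Finite Ω] (h2 : IsMultiplyPretransitive G Ω 2) {Γ : Set Ω}
    (h1 : Γ.Nonempty) (hhalf : 2 * Γ.ncard ≤ Nat.card Ω) {a x y : Ω} (hax : a ≠ x) (hay : a ≠ y) (hxy : x ≠ y) :
    ¬ Coupled G Γ a x y := by
  classical
  intro hc
  obtain ⟨p, hp⟩ := h1
  have h2' : ∀ {a b c d : Ω}, a ≠ b → c ≠ d → ∃ g : G, g • a = c ∧ g • b = d :=
    fun hab hcd => is_two_pretransitive_iff.1 h2 hab hcd
  have key : ∀ b : (Γᶜ : Set Ω), ∃ w : Ω, w ∈ Γ ∧ w ≠ p ∧ Coupled G Γ (b : Ω) p w := by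
    intro b
    have hbp : (b : Ω) ≠ p := fun e => b.2 (by rw [e]; exact hp)
    obtain ⟨h, ha, hx⟩ := h2' hax hbp
    have hw : Coupled G Γ (b : Ω) p (h • y) := by
      intro g
      have := hc (h⁻¹ * g)
      simpa [mul_smul, ← ha, ← hx] using this
    refine ⟨h • y, ?_, fun e => hxy (MulAction.injective h (hx.trans e.symm)), hw⟩
    have := hw 1 (by rw [inv_one, one_smul]; exact b.2)
    simpa [hp] using this
  choose w hwΓ hwp hwc using key
  have hinj : Function.Injective fun b => (⟨w b, hwΓ b, hwp b⟩ : (Γ \ {p} : Set Ω)) := by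
    intro b c e
    have e' : w b = w c := congrArg Subtype.val e
    by_contra hne
    have hbp : (b : Ω) ≠ p := fun e => b.2 (by rw [e]; exact hp)
    have hcp : (c : Ω) ≠ p := fun e => c.2 (by rw [e]; exact hp)
    have t1 := (hwc b).swap h2 hbp (hwp b).symm
    have t2 := (hwc c).swap h2 hcp (hwp c).symm
    rw [e'] at t1
    have t3 : Coupled G Γ p (b : Ω) (c : Ω) := fun g hg => (t1 g hg).trans (t2 g hg).symm
    have t4 := t3.swap h2 hbp.symm (fun e => hne (Subtype.ext e))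
    have t5 := t4 1 (by rw [inv_one, one_smul]; exact b.2)
    exact c.2 (by simpa [hp] using t5)
  have hle := Nat.card_le_card_of_injective _ hinj
  rw [Nat.card_coe_set_eq, Nat.card_coe_set_eq, Set.ncard_sdiff_singleton_of_mem hp] at hle
  have := Γ.ncard_add_ncard_compl
  have hpos : 0 < Γ.ncard := (Set.ncard_pos (Set.toFinite _)).2 ⟨p, hp⟩
  omega

/-- Under the hypotheses of Marggraf's theorem a point stabiliser is primitive on the other points. -/
theorem stabilizer_preprimitive [Finite G] [Finite Ω] (h2 : IsMultiplyPretransitive G Ω 2) {Γ : Set Ω}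
    (h1 : 1 < Γ.ncard) (hhalf : 2 * Γ.ncard ≤ Nat.card Ω)
    (htr : ∀ x ∈ Γ, ∀ y ∈ Γ, ∃ g : G, (∀ z ∉ Γ, g • z = z) ∧ g • x = y) (a : Ω) :
    IsPreprimitive (stabilizer G a) (SubMulAction.ofStabilizer G a) := by
  classical
  haveI : IsPretransitive G Ω := isPretransitive_of_is_two_pretransitive
  have h2' : ∀ {a b c d : Ω}, a ≠ b → c ≠ d → ∃ g : G, g • a = c ∧ g • b = d :=
    fun hab hcd => is_two_pretransitive_iff.1 h2 hab hcd
  haveI : IsPretransitive (stabilizer G a) (SubMulAction.ofStabilizer G a) := by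
    rw [← is_one_pretransitive_iff]
    exact SubMulAction.ofStabilizer.isMultiplyPretransitive.1 h2
  refine ⟨fun {B} hB => ?_⟩
  rw [IsTrivialBlock]
  by_contra hcon
  rw [not_or] at hcon
  obtain ⟨hns, hnu⟩ := hcon
  obtain ⟨x, hx, y, hy, hxy⟩ := Set.not_subsingleton_iff.1 hns
  obtain ⟨z, hz⟩ := (Set.ne_univ_iff_exists_notMem B).1 hnu
  set B₀ : Set Ω := Subtype.val '' B with hB₀
  have hmemB : ∀ u : SubMulAction.ofStabilizer G a, (u : Ω) ∈ B₀ ↔ u ∈ B := fun u => by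
    rw [hB₀, Subtype.val_injective.mem_set_image]
  -- a translate avoiding `a` which splits a block lies inside it
  have hsplit : ∀ (C : Set (SubMulAction.ofStabilizer G a)), IsBlock (stabilizer G a) C →
      ∀ u ∈ C, ∀ v ∈ C, ∀ g : G, g⁻¹ • a ∉ Γ → g⁻¹ • (u : Ω) ∈ Γ → g⁻¹ • (v : Ω) ∉ Γ →
        ∀ w : SubMulAction.ofStabilizer G a, g⁻¹ • (w : Ω) ∈ Γ → w ∈ C := by
    intro C hC u hu v hv g ha hgu hgv w hgw
    obtain ⟨k, hkfix, hk⟩ := htr _ hgu _ hgw
    have hfix : ∀ t : Ω, g⁻¹ • t ∉ Γ → (g * k * g⁻¹) • t = t := fun t ht => by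
      rw [mul_smul, mul_smul, hkfix _ ht, smul_inv_smul]
    let k' : stabilizer G a := ⟨g * k * g⁻¹, hfix a ha⟩
    have hku : k' • u = w := Subtype.ext (by
      show (g * k * g⁻¹) • (u : Ω) = w
      rw [mul_smul, mul_smul, hk, smul_inv_smul])
    have hkv : k' • v = v := Subtype.ext (hfix _ hgv)
    have hCk : k' • C = C := hC.smul_eq_of_nonempty ⟨v, ⟨v, hv, hkv⟩, hv⟩
    rw [← hCk]
    exact ⟨u, hu, hku⟩
  -- a translate avoiding `a` inside the block
  obtain ⟨g₀, hg₀a, hg₀B⟩ : ∃ g : G, g⁻¹ • a ∉ Γ ∧ ∀ w : SubMulAction.ofStabilizer G a, g⁻¹ • (w : Ω) ∈ Γ → w ∈ B := by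
    have hnc := not_coupled (G := G) h2 (Set.nonempty_of_ncard_ne_zero (by omega)) hhalf
      (a := a) (x := (x : Ω)) (y := (y : Ω)) (Ne.symm x.2) (Ne.symm y.2) (fun e => hxy (Subtype.ext e))
    rw [Coupled] at hnc
    push Not at hnc
    obtain ⟨g, hga, hg⟩ := hnc
    rcases hg with ⟨h3, h4⟩ | ⟨h3, h4⟩
    · exact ⟨g, hga, hsplit B hB x hx y hy g hga h3 h4⟩
    · exact ⟨g, hga, hsplit B hB y hy x hx g hga h4 h3⟩
  have hmB : Γ.ncard ≤ B₀.ncard := by
    rw [← Set.ncard_smul_set g₀ Γ]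
    refine Set.ncard_le_ncard (fun w hw => ?_) (Set.toFinite _)
    rw [Set.mem_smul_set_iff_inv_smul_mem] at hw
    have hwa : w ≠ a := fun e => hg₀a (e ▸ hw)
    exact (hmemB ⟨w, hwa⟩).2 (hg₀B ⟨w, hwa⟩ hw)
  obtain ⟨h, hh⟩ := exists_smul_eq (stabilizer G a) x z
  have hdis : Disjoint (h • B) B := by
    rcases isBlock_iff_smul_eq_or_disjoint.1 hB h with e | e
    · exact absurd (e ▸ (⟨x, hx, hh⟩ : z ∈ h • B)) hz
    · exact e
  have hBcard : 2 * B₀.ncard + 1 ≤ Nat.card Ω := by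
    have h3 : ((Subtype.val '' (h • B)) ∪ B₀ : Set Ω).ncard = 2 * B₀.ncard := by
      rw [Set.ncard_union_eq ((Set.disjoint_image_iff Subtype.val_injective).2 hdis),
        Set.ncard_image_of_injective _ Subtype.val_injective, Set.ncard_smul_set, hB₀,
        Set.ncard_image_of_injective _ Subtype.val_injective, two_mul]
    have hna : a ∉ (Subtype.val '' (h • B)) ∪ B₀ := by
      rintro (⟨u, -, e⟩ | ⟨u, -, e⟩) <;> exact u.2 e
    have := Set.ncard_le_ncard (Set.subset_univ (insert a ((Subtype.val '' (h • B)) ∪ B₀)))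
    rw [Set.ncard_insert_of_notMem hna, h3, Set.ncard_univ] at this
    exact this
  -- no translate avoiding `a` meets two blocks
  have hnone : ∀ g : G, ∀ w : SubMulAction.ofStabilizer G a, w ∉ B →
      g⁻¹ • (x : Ω) ∈ Γ ∧ g⁻¹ • (w : Ω) ∈ Γ → g⁻¹ • (x : Ω) ∈ Γ ∧ g⁻¹ • a ∈ Γ := by
    intro g w hw ⟨hgx, hgw⟩
    refine ⟨hgx, by_contra fun hga => ?_⟩
    have hall : ∀ v ∈ B, g⁻¹ • ((v : Ω)) ∈ Γ := fun v hv => by_contra fun hgv =>
      hw (hsplit B hB x hx v hv g hga hgx hgv w hgw)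
    have hBsub : insert (w : Ω) B₀ ⊆ g • Γ := by
      intro t ht
      rw [Set.mem_smul_set_iff_inv_smul_mem]
      rcases ht with rfl | ⟨v, hv, rfl⟩
      · exact hgw
      · exact hall v hv
    have h4 := Set.ncard_le_ncard hBsub (Set.toFinite _)
    rw [Set.ncard_insert_of_notMem (fun e => hw ((hmemB w).1 e)), Set.ncard_smul_set] at h4
    omega
  obtain ⟨p, hp, q, hq, hpq⟩ := (Set.one_lt_ncard).1 h1
  obtain ⟨g, hgp, hgq⟩ := h2' hpq (Ne.symm (x.2 : (x : Ω) ≠ a)).symm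
  have hgx : g⁻¹ • (x : Ω) ∈ Γ := by rw [← hgp, inv_smul_smul]; exact hp
  have hga : g⁻¹ • a ∈ Γ := by rw [← hgq, inv_smul_smul]; exact hq
  have hsub : (insert a (insert (x : Ω) (B₀ᶜ \ {a}))) ⊆ g • Γ := by
    intro t ht
    rw [Set.mem_smul_set_iff_inv_smul_mem]
    rcases ht with rfl | rfl | ⟨ht, hta⟩
    · exact hga
    · exact hgx
    · have hwB : (⟨t, hta⟩ : SubMulAction.ofStabilizer G a) ∉ B := fun e => ht ((hmemB _).2 e)
      have := imp_of_imp (fun u v => u ∈ Γ ∧ v ∈ Γ)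
        (h2' (fun e : (x : Ω) = t => hwB ((show x = (⟨t, hta⟩ : SubMulAction.ofStabilizer G a) from Subtype.ext e) ▸ hx))
          (x.2 : (x : Ω) ≠ a)) (fun g hg => hnone g ⟨t, hta⟩ hwB hg) g ⟨hgx, hga⟩
      exact this.2
  have h5 := Set.ncard_le_ncard hsub (Set.toFinite _)
  have hxn : (x : Ω) ∉ B₀ᶜ \ {a} := fun e => e.1 ((hmemB x).2 hx)
  have han : a ∉ insert (x : Ω) (B₀ᶜ \ {a}) := by
    rintro (e | e)
    · exact x.2 e.symm
    · exact e.2 rfl
  have haB : a ∈ B₀ᶜ := by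
    rintro ⟨u, -, e⟩
    exact u.2 e
  rw [Set.ncard_insert_of_notMem han, Set.ncard_insert_of_notMem hxn, Set.ncard_smul_set,
    Set.ncard_sdiff_singleton_of_mem haB] at h5
  have := B₀.ncard_add_ncard_compl
  have hpos : 0 < B₀ᶜ.ncard := (Set.ncard_pos (Set.toFinite _)).2 ⟨a, haB⟩
  omega

end CfsgLib.Marggraf
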